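import Cfsg.Agent.Lib.PermK.Orb
import Cfsg.Agent.Lib.ClassCount

/-!
# The class number of a permutation group

We follow the cycle of an element `g` through a base point and count commuting pairs.
-/

set_option autoImplicit false

namespace CfsgLib.PermK

open Finset Equiv

variable {α : Type*} [Fintype α] [DecidableEq α]

open Classical in
/-- Elements of the coset `g P`. -/
noncomputable def cs (g : Perm α) (P : Subgroup (Perm α)) : Finset (Perm α) :=
  univ.filter (fun x => g⁻¹ * x ∈ P)

theorem mem_cs {g x : Perm α} {P : Subgroup (Perm α)} : x ∈ cs g P ↔ g⁻¹ * x ∈ P := by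
  simp [cs]

theorem mem_cs_one {x : Perm α} {P : Subgroup (Perm α)} : x ∈ cs 1 P ↔ x ∈ P := by
  simp [mem_cs]

theorem card_cs_one (P : Subgroup (Perm α)) : (cs 1 P).card = Nat.card P := by
  rw [← Nat.card_eq_finsetCard]
  exact Nat.card_congr (Equiv.subtypeEquivRight fun x => mem_cs_one)

/-- Number of commuting pairs in `Q × X`. -/
noncomputable def cp (Q : Subgroup (Perm α)) (X : Finset (Perm α)) : ℕ :=
  ∑ h ∈ cs 1 Q, (X.filter (fun x => h * x = x * h)).card

theorem cp_mono (Q : Subgroup (Perm α)) {X Y : Finset (Perm α)} (h : X ⊆ Y) : cp Q X ≤ cp Q Y :=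
  sum_le_sum fun _ _ => card_le_card (filter_subset_filter _ h)

theorem cp_coset (Q : Subgroup (Perm α)) (g : Perm α) : cp Q (cs g Q) ≤ cp Q (cs 1 Q) := by
  refine sum_le_sum fun h _ => ?_
  rcases ((cs g Q).filter (fun x => h * x = x * h)).eq_empty_or_nonempty with h0 | ⟨x0, hx0⟩
  · rw [h0]; simp
  rw [mem_filter, mem_cs] at hx0
  refine card_le_card_of_injOn (fun x => x0⁻¹ * x) ?_ (fun x _ y _ hxy => mul_left_cancel hxy)
  intro x hx
  rw [mem_coe, mem_filter, mem_cs] at hx
  rw [mem_coe, mem_filter, mem_cs_one]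
  constructor
  · have := Q.mul_mem (Q.inv_mem hx0.1) hx.1
    simpa [mul_assoc] using this
  · have c1 : Commute h x0 := hx0.2
    have c2 : Commute h x := hx.2
    exact (c1.inv_right.mul_right c2).eq

theorem cp_split {Q : Subgroup (Perm α)} {c : α} (hc : ∀ h ∈ Q, h c = c) (X : Finset (Perm α))
    (T : Finset α) (hT : ∀ x ∈ X, x c ∈ T) :
    cp Q X ≤ ∑ b ∈ T, cp (st Q b) (X.filter (fun x => x c = b)) := by
  unfold cp
  have h1 : ∀ h ∈ cs 1 Q, (X.filter (fun x => h * x = x * h)).card =
      ∑ b ∈ T, ((X.filter (fun x => x c = b)).filter (fun x => h * x = x * h)).card := by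
    intro h _
    rw [card_eq_sum_card_fiberwise (f := fun x : Perm α => x c) (t := T)
      (fun x hx => hT x (mem_filter.1 hx).1)]
    refine sum_congr rfl fun b _ => ?_
    rw [filter_comm]
  rw [sum_congr rfl h1, sum_comm]
  refine sum_le_sum fun b _ => ?_
  refine le_of_eq (sum_subset (fun h hh => mem_cs_one.2 (st_le Q b (mem_cs_one.1 hh))) ?_).symm
  intro h hh hn
  rw [card_eq_zero, filter_eq_empty_iff]
  intro x hx hcomm
  apply hn
  rw [mem_cs_one] at hh ⊢
  refine mem_st.2 ⟨hh, ?_⟩
  have h2 := (mem_filter.1 hx).2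
  have h3 : (h * x) c = (x * h) c := by rw [hcomm]
  rw [Perm.mul_apply, Perm.mul_apply, hc h hh, h2] at h3
  exact h3

/-- The bound for `P`. -/
def KK (P : Subgroup (Perm α)) : Prop :=
  (cp P (cs 1 P) : ℝ) ≤ Real.exp (LL P univ) * Nat.card P

theorem card_st_eq (Q : Subgroup (Perm α)) (b : α) :
    (Nat.card (st Q b) : ℝ) = Nat.card Q / os Q b := by
  have h := os_pos Q b
  rw [← os_mul Q b, eq_div_iff (by positivity)]
  push_cast; ring

theorem sum_bound (Q : Subgroup (Perm α)) (T : Finset α) (f : α → ℕ)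
    (hf : ∀ b ∈ T, (f b : ℝ) ≤ ff (os Q b) * Real.exp (LL Q univ) * Nat.card (st Q b)) :
    ((∑ b ∈ T, f b : ℕ) : ℝ) ≤ Real.exp (LL Q univ) * FF Q T * Nat.card Q := by
  push_cast
  refine (sum_le_sum hf).trans (le_of_eq ?_)
  unfold FF
  rw [mul_sum, sum_mul]
  refine sum_congr rfl fun b _ => ?_
  rw [card_st_eq]; ring

theorem node (a : α) (n : ℕ) : ∀ P : Subgroup (Perm α), Nat.card P = n → (∀ Q ≤ P, KK Q) →
    ∀ (g : Perm α) (c : α), st P c = st (cj g P) a →
      (cp (st P c) (cs g P) : ℝ) ≤ ff (os P c) * Real.exp (LL P univ) * Nat.card (st P c) := by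
  induction n using Nat.strong_induction_on with
  | _ n ih =>
    intro P hn hK g c hc
    by_cases h1 : os P c = 1
    · have e : st P c = P :=
        le_antisymm (st_le P c) fun h hh => mem_st.2 ⟨hh, fix_of_os_eq_one h1 h hh⟩
      rw [e, h1, ff, if_pos (by omega), one_mul]
      exact le_trans (by exact_mod_cast cp_coset P g) (hK P le_rfl)
    have hm : 2 ≤ os P c := by have := os_pos P c; omega
    have hQpos : 0 < Nat.card (st P c) := Nat.card_pos
    have hlt : Nat.card (st P c) < n := by
      rw [← hn, ← os_mul P c]; nlinarith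
    have s1 := cp_split (Q := st P c) (c := c) (fun h hh => (mem_st.1 hh).2) (cs g P)
      (orb (cj g P) (g c)) (by
        intro x hx
        refine mem_orb.2 ⟨x * g⁻¹, mem_cj.2 ?_, by simp⟩
        simpa [mul_assoc] using mem_cs.1 hx)
    have s2 := sum_bound (st P c) (orb (cj g P) (g c))
      (fun b => cp (st (st P c) b) ((cs g P).filter (fun x => x c = b))) (by
        intro b hb
        obtain ⟨y, hy, hyb⟩ := mem_orb.1 hb
        have hy' := mem_cj.1 hy
        have hb' : (y * g) c = b := hyb
        refine le_trans ?_ (ih _ hlt (st P c) rfl (fun Q hQ => hK Q (hQ.trans (st_le P c)))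
          (y * g) b ?_)
        · refine Nat.cast_le.2 (cp_mono _ fun x hx => ?_)
          rw [mem_filter, mem_cs] at hx
          refine mem_cs.2 (mem_st.2 ⟨?_, ?_⟩)
          · have := P.mul_mem (P.inv_mem hy') hx.1
            simpa [mul_assoc] using this
          · rw [Perm.mul_apply, hx.2, ← hb']
            exact Equiv.symm_apply_apply _ _
        · ext z
          have k1 : z ∈ cj g P ↔ (y * g)⁻¹ * z * (y * g) ∈ P := by
            rw [mem_cj]
            constructor
            · intro h
              have := P.mul_mem (P.mul_mem (P.inv_mem hy') h) hy'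
              simpa [mul_assoc] using this
            · intro h
              have := P.mul_mem (P.mul_mem hy' h) (P.inv_mem hy')
              simpa [mul_assoc] using this
          have k2 : ((y * g)⁻¹ * z * (y * g)) c = c ↔ z b = b := by
            rw [Perm.mul_apply, Perm.mul_apply, hb', Perm.inv_eq_iff_eq, hb']
          rw [mem_st (x := b), mem_st (x := a), mem_cj, mem_st (x := c) (h := _ * _ * _), ← k1, k2,
            hc, mem_st]
          tauto)
    have had : os (cj g P) a = os (cj g P) (g c) := by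
      rw [os_cj]
      have e1 := os_mul (cj g P) a
      rw [← hc, card_cj, ← os_mul P c] at e1
      exact Nat.eq_of_mul_eq_mul_right hQpos e1
    have s3 := comb (Q := st P c) (P := cj g P) (a := a) (d := g c) (hc ▸ st_le _ _)
      (fun h hh => (mem_st.1 (hc ▸ hh)).2) (by rw [os_cj]; exact hm) had
    rw [os_cj, LL_cj] at s3
    refine le_trans (Nat.cast_le.2 s1) (s2.trans ?_)
    exact mul_le_mul_of_nonneg_right s3 (by positivity)

/-- Order of the centralizer in `Q`. -/
theorem cp_eq (Q : Subgroup (Perm α)) (X : Finset (Perm α)) :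
    cp Q X = ∑ x ∈ X, Nat.card (Q ⊓ Subgroup.centralizer {x} : Subgroup (Perm α)) := by
  unfold cp
  simp only [card_filter]
  rw [sum_comm]
  refine sum_congr rfl fun x _ => ?_
  rw [← card_filter, ← card_cs_one]
  congr 1
  ext h
  rw [mem_filter, mem_cs_one, mem_cs_one, Subgroup.mem_inf, Subgroup.mem_centralizer_singleton_iff]

/-- Pointwise stabilizer in `H`. -/
def fx (H : Subgroup (Perm α)) (S : Finset α) : Subgroup (Perm α) where
  carrier := {h | h ∈ H ∧ ∀ x ∈ S, h x = x}
  mul_mem' := by
    rintro a b ⟨h1, h2⟩ ⟨h3, h4⟩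
    exact ⟨H.mul_mem h1 h3, fun x hx => by rw [Perm.mul_apply, h4 x hx, h2 x hx]⟩
  one_mem' := ⟨H.one_mem, fun _ _ => rfl⟩
  inv_mem' := by
    rintro a ⟨h1, h2⟩
    exact ⟨H.inv_mem h1, fun x hx => by rw [Perm.inv_eq_iff_eq, h2 x hx]⟩

omit [DecidableEq α] in
theorem card_inf_mul_le {H K : Subgroup (Perm α)} (hle : K ≤ H) (C : Subgroup (Perm α)) :
    Nat.card (H ⊓ C : Subgroup (Perm α)) * Nat.card K ≤
      Nat.card H * Nat.card (K ⊓ C : Subgroup (Perm α)) := by
  classical
  have h1 : K.relIndex (H ⊓ C) ≤ K.relIndex H :=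
    Subgroup.relIndex_le_of_le_right inf_le_left Subgroup.index_ne_zero_of_finite
  have h2 : K.relIndex H * Nat.card K = Nat.card H := by
    rw [Subgroup.relIndex, ← Subgroup.index_mul_card (K.subgroupOf H)]
    congr 1
    exact (Nat.card_congr (Subgroup.subgroupOfEquivOfLe hle).toEquiv).symm
  have h3 : K.relIndex (H ⊓ C) * Nat.card (K ⊓ C : Subgroup (Perm α)) =
      Nat.card (H ⊓ C : Subgroup (Perm α)) := by
    have e : K ⊓ (H ⊓ C) = K ⊓ C := by rw [← inf_assoc, inf_eq_left.2 hle]
    rw [← Subgroup.inf_relIndex_right, e, Subgroup.relIndex,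
      ← Subgroup.index_mul_card ((K ⊓ C).subgroupOf (H ⊓ C))]
    congr 1
    exact (Nat.card_congr (Subgroup.subgroupOfEquivOfLe (inf_le_inf_right C hle)).toEquiv).symm
  rw [← h2, ← h3]
  calc K.relIndex (H ⊓ C) * Nat.card (K ⊓ C : Subgroup (Perm α)) * Nat.card K
      ≤ K.relIndex H * Nat.card (K ⊓ C : Subgroup (Perm α)) * Nat.card K := by gcongr
    _ = _ := by ring

theorem card_le_sum_st (C : Subgroup (Perm α)) {T : Finset α} (hT : Inv C T) {x : α} (hx : x ∈ T) :
    Nat.card C ≤ ∑ y ∈ T, Nat.card (st C y) := by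
  refine le_trans (le_of_eq ?_) (sum_le_sum_of_subset (hT.orb_subset hx))
  have : ∀ y ∈ orb C x, Nat.card (st C y) = Nat.card (st C x) := by
    intro y hy
    have e1 := os_mul C y
    rw [os_eq_of_mem hy, ← os_mul C x] at e1
    exact Nat.eq_of_mul_eq_mul_left (os_pos C x) e1
  rw [sum_congr rfl this, sum_const, smul_eq_mul, ← os_mul C x]
  rfl

theorem root {H : Subgroup (Perm α)} (hK : ∀ Q < H, KK Q) {d : α} (hm : 2 ≤ os H d) {a : α}
    (ha : a ∈ orb H d) :
    (cp (st H a) ((cs 1 H).filter (fun x => x a ≠ a)) : ℝ) ≤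
      (ph (os H d) - 1) * Real.exp (LL H (univ \ orb H d)) * Nat.card (st H a) := by
  have hlt : st H a < H := by
    refine lt_of_le_of_ne (st_le H a) fun e => ?_
    have := os_eq_one (H := H) (x := a) fun g hg => (mem_st.1 (e.symm ▸ hg)).2
    rw [os_eq_of_mem ha] at this
    omega
  have s1 := cp_split (Q := st H a) (c := a) (fun h hh => (mem_st.1 hh).2)
    ((cs 1 H).filter (fun x => x a ≠ a)) ((orb H d).erase a) (by
      intro x hx
      rw [mem_filter, mem_cs_one] at hx
      exact mem_erase.2 ⟨hx.2, inv_orb le_rfl d x hx.1 a ha⟩)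
  have s2 := sum_bound (st H a) ((orb H d).erase a)
    (fun b => cp (st (st H a) b) (((cs 1 H).filter (fun x => x a ≠ a)).filter (fun x => x a = b)))
    (by
      intro b hb
      have hb' := (mem_erase.1 hb).2
      rw [← orb_eq_of_mem ha] at hb'
      obtain ⟨y, hy, hyb⟩ := mem_orb.1 hb'
      refine le_trans ?_ (node a _ (st H a) rfl (fun Q hQ => hK Q (lt_of_le_of_lt hQ hlt)) y b ?_)
      · refine Nat.cast_le.2 (cp_mono _ fun x hx => ?_)
        rw [mem_filter, mem_filter, mem_cs_one] at hx
        refine mem_cs.2 (mem_st.2 ⟨H.mul_mem (H.inv_mem hy) hx.1.1, ?_⟩)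
        rw [Perm.mul_apply, hx.2, ← hyb]
        exact Equiv.symm_apply_apply _ _
      · ext z
        have k1 : z ∈ H ↔ y⁻¹ * z * y ∈ H := by
          constructor
          · intro h
            exact H.mul_mem (H.mul_mem (H.inv_mem hy) h) hy
          · intro h
            have := H.mul_mem (H.mul_mem hy h) (H.inv_mem hy)
            simpa [mul_assoc] using this
        have k2 : (y⁻¹ * z * y) a = a ↔ z b = b := by
          rw [Perm.mul_apply, Perm.mul_apply, hyb, Perm.inv_eq_iff_eq, hyb]
        rw [mem_st (x := b), mem_st (x := a) (H := cj _ _), mem_cj,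
          mem_st (x := a) (h := _ * _ * _), ← k1, k2, mem_st]
        tauto)
  have s3 := comb_root (Q := st H a) (P := H) (a := a) (d := d) (st_le _ _)
    (fun h hh => (mem_st.1 hh).2) hm ha
  refine le_trans (Nat.cast_le.2 s1) (s2.trans ?_)
  exact mul_le_mul_of_nonneg_right s3 (by positivity)

theorem kk_aux (n : ℕ) : ∀ H : Subgroup (Perm α), Nat.card H = n → KK H := by
  induction n using Nat.strong_induction_on with
  | _ n ih =>
    intro H hn
    have hK : ∀ Q < H, KK Q := fun Q hQ =>
      ih _ (hn ▸ lt_of_le_of_ne (Subgroup.card_le_of_le hQ.le)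
        fun e => hQ.ne (Subgroup.eq_of_le_of_card_ge hQ.le e.ge)) Q rfl
    by_cases h0 : ∀ d, os H d = 1
    · have e : H = ⊥ := by
        rw [eq_bot_iff]
        intro g hg
        rw [Subgroup.mem_bot]
        ext x
        exact fix_of_os_eq_one (h0 x) g hg
      subst e
      unfold KK
      rw [cp_eq]
      have : 1 ≤ Real.exp (LL (⊥ : Subgroup (Perm α)) univ) := Real.one_le_exp (LL_nonneg _ _)
      simpa [card_cs_one] using this
    push Not at h0
    obtain ⟨d, hd⟩ := h0
    have hm : 2 ≤ os H d := by have := os_pos H d; omega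
    set O := orb H d with hO
    set E := Real.exp (LL H (univ \ O)) with hE
    have hle : fx H O ≤ H := fun h hh => hh.1
    have hlt : fx H O < H := by
      refine lt_of_le_of_ne hle fun e => hd (os_eq_one fun g hg => ?_)
      have : g ∈ fx H O := e.symm ▸ hg
      exact this.2 d (self_mem_orb H d)
    have hsub : cs 1 (fx H O) ⊆ cs 1 H := fun x hx => mem_cs_one.2 (hle (mem_cs_one.1 hx))
    -- part 1
    have p1 : (cp H (cs 1 (fx H O)) : ℝ) ≤ E * Nat.card H := by
      have a1 : cp H (cs 1 (fx H O)) * Nat.card (fx H O) ≤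
          Nat.card H * cp (fx H O) (cs 1 (fx H O)) := by
        rw [cp_eq, cp_eq, sum_mul, mul_sum]
        exact sum_le_sum fun x _ => card_inf_mul_le hle _
      have a2 := hK _ hlt
      unfold KK at a2
      have a3 : LL (fx H O) univ ≤ LL H (univ \ O) := by
        rw [LL_split _ (subset_univ O)]
        have : LL (fx H O) O = 0 := sum_eq_zero fun x hx => by
          rw [os_eq_one (H := fx H O) (fun g hg => hg.2 x hx), ll_one]
        rw [this, zero_add]
        exact LL_mono hle _
      have a4 := Real.exp_le_exp.2 a3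
      have a5 : (0 : ℝ) < Nat.card (fx H O) := by exact_mod_cast Nat.card_pos
      have a6 : (0 : ℝ) < Nat.card H := by exact_mod_cast Nat.card_pos
      have a7 : (cp H (cs 1 (fx H O)) : ℝ) * Nat.card (fx H O) ≤
          Nat.card H * cp (fx H O) (cs 1 (fx H O)) := by exact_mod_cast a1
      refine le_of_mul_le_mul_right (a7.trans ?_) a5
      calc (Nat.card H : ℝ) * cp (fx H O) (cs 1 (fx H O))
          ≤ Nat.card H * (E * Nat.card (fx H O)) := by
            refine mul_le_mul_of_nonneg_left (a2.trans ?_) a6.le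
            exact mul_le_mul_of_nonneg_right a4 a5.le
        _ = _ := by ring
    -- part 2
    have p2 : cp H (cs 1 H \ cs 1 (fx H O)) ≤
        ∑ a ∈ O, cp (st H a) ((cs 1 H).filter (fun x => x a ≠ a)) := by
      simp only [cp_eq, sum_filter]
      rw [sum_comm]
      refine le_trans (sum_le_sum fun x hx => ?_) (sum_le_sum_of_subset sdiff_subset)
      rw [mem_sdiff, mem_cs_one, mem_cs_one] at hx
      obtain ⟨y, hy, hxy⟩ : ∃ y ∈ O, x y ≠ y := by
        by_contra hc
        push Not at hc
        exact hx.2 ⟨hx.1, hc⟩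
      have := card_le_sum_st (H ⊓ Subgroup.centralizer {x}) (T := O.filter (fun y => x y ≠ y))
        (by
          intro h hh z hz
          rw [mem_filter] at hz ⊢
          refine ⟨inv_orb le_rfl d h hh.1 z hz.1, fun e => hz.2 ?_⟩
          have c := Subgroup.mem_centralizer_singleton_iff.1 hh.2
          have c2 : (h * x) z = (x * h) z := by rw [c]
          rw [Perm.mul_apply, Perm.mul_apply, e] at c2
          exact h.injective c2) (mem_filter.2 ⟨hy, hxy⟩)
      rw [sum_filter] at this
      refine this.trans (le_of_eq (sum_congr rfl fun z _ => ?_))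
      congr 2
      unfold st
      rw [inf_right_comm]
    have p3 : ((∑ a ∈ O, cp (st H a) ((cs 1 H).filter (fun x => x a ≠ a)) : ℕ) : ℝ) ≤
        (ph (os H d) - 1) * E * Nat.card H := by
      push_cast
      refine (sum_le_sum fun a ha => root hK hm ha).trans (le_of_eq ?_)
      rw [sum_congr rfl (fun a ha => by rw [card_st_eq, os_eq_of_mem ha]), sum_const, nsmul_eq_mul]
      change (os H d : ℝ) * _ = _
      have : (os H d : ℝ) ≠ 0 := by positivity
      rw [← hO, ← hE]
      field_simp
    have p4 : cp H (cs 1 H) = cp H (cs 1 H \ cs 1 (fx H O)) + cp H (cs 1 (fx H O)) := by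
      simp only [cp_eq]
      rw [sum_sdiff hsub]
    unfold KK
    rw [p4, LL_split H (subset_univ O), Real.exp_add, exp_LL_orb]
    have p5 : (cp H (cs 1 H \ cs 1 (fx H O)) : ℝ) ≤ _ := le_trans (Nat.cast_le.2 p2) p3
    push_cast
    linarith

theorem cp_self (H : Subgroup (Perm α)) :
    cp H (cs 1 H) = Nat.card (ConjClasses H) * Nat.card H := by
  classical
  haveI := Fintype.ofFinite H
  rw [ClassCount.card_conjClasses_mul_card, cp_eq]
  symm
  refine sum_bij (fun x _ => (x : Perm α)) (fun x _ => mem_cs_one.2 x.2)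
    (fun _ _ _ _ h => Subtype.ext h) (fun x hx => ⟨⟨x, mem_cs_one.1 hx⟩, mem_univ _, rfl⟩) ?_
  intro x _
  rw [← ClassCount.centralizer_subgroupOf, ← Subgroup.inf_subgroupOf_right, inf_comm]
  exact Nat.card_congr (Subgroup.subgroupOfEquivOfLe inf_le_left).toEquiv

/-- The class number is at most the product of the weights of the orbits. -/
theorem card_conjClasses_le (H : Subgroup (Perm α)) :
    (Nat.card (ConjClasses H) : ℝ) ≤ Real.exp (LL H univ) := by
  have h := kk_aux _ H rfl
  unfold KK at h
  rw [cp_self] at h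
  have a6 : (0 : ℝ) < Nat.card H := by exact_mod_cast Nat.card_pos
  push_cast at h
  exact le_of_mul_le_mul_right h a6

theorem card_conjClasses_le_ph (H : Subgroup (Perm α)) :
    (Nat.card (ConjClasses H) : ℝ) ≤ ph (Fintype.card α) := by
  refine (card_conjClasses_le H).trans ?_
  rcases isEmpty_or_nonempty α with h | ⟨⟨x⟩⟩
  · simp [LL, ph]
  · have e : orb (⊤ : Subgroup (Perm α)) x = univ := by
      ext y
      simp only [mem_orb, mem_univ, iff_true]
      exact ⟨swap x y, trivial, by simp⟩
    have := exp_LL_orb (⊤ : Subgroup (Perm α)) x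
    rw [os, e, card_univ] at this
    rw [← this]
    exact Real.exp_le_exp.2 (LL_mono le_top _)

theorem sq_le_three_pow (H : Subgroup (Perm α)) (hn : 3 ≤ Fintype.card α) :
    Nat.card (ConjClasses H) ^ 2 ≤ 3 ^ (Fintype.card α - 1) := by
  have h := card_conjClasses_le_ph H
  rw [ph, if_neg (by omega)] at h
  have h2 : (Nat.card (ConjClasses H) : ℝ) ^ 2 ≤ (rt ^ (Fintype.card α - 1)) ^ 2 := by gcongr
  rw [← pow_mul, mul_comm, rt_pow_two_mul] at h2
  exact_mod_cast h2

theorem le_two_pow (H : Subgroup (Perm α)) :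
    Nat.card (ConjClasses H) ≤ 2 ^ (Fintype.card α - 1) := by
  have h := card_conjClasses_le_ph H
  have h2 : ph (Fintype.card α) ≤ 2 ^ (Fintype.card α - 1) := by
    unfold ph
    split_ifs with h3
    · rw [h3]; norm_num
    · exact pow_le_pow_left₀ rt_pos.le (by have := rt_ub; linarith) _
  exact_mod_cast h.trans h2

end CfsgLib.PermK
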