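import Mathlib

/-!
# Numerical lemmas for the class number bound of permutation groups
-/

set_option autoImplicit false

namespace CfsgLib.PermK

/-- `√3`. -/
noncomputable def rt : ℝ := Real.sqrt 3

/-- `(√3 + 1) / 2 = 1 / (√3 - 1)`. -/
noncomputable def mm : ℝ := (rt + 1) / 2

theorem rt_sq : rt * rt = 3 := Real.mul_self_sqrt (by norm_num)

theorem rt_pos : 0 < rt := Real.sqrt_pos.2 (by norm_num)

theorem rt_lb : 1.732 < rt := by
  have := rt_sq; have := rt_pos
  by_contra h
  push Not at h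
  nlinarith

theorem rt_ub : rt < 1.7321 := by
  have := rt_sq; have := rt_pos
  by_contra h
  push Not at h
  nlinarith

theorem mm_lb : 1.366 < mm := by unfold mm; have := rt_lb; linarith

theorem mm_ub : mm < 1.3661 := by unfold mm; have := rt_ub; linarith

theorem mm_mul : mm * rt = mm + 1 := by unfold mm; have := rt_sq; nlinarith

theorem one_le_rt_pow (n : ℕ) : 1 ≤ rt ^ n := one_le_pow₀ (by have := rt_lb; linarith)

theorem rt_pow_two_mul (j : ℕ) : rt ^ (2 * j) = 3 ^ j := by
  rw [pow_mul, sq, rt_sq]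

/-- The bound for a single orbit of length `m`. -/
noncomputable def ph (m : ℕ) : ℝ := if m = 2 then 2 else rt ^ (m - 1)

/-- The overcounting factor. -/
noncomputable def ff (m : ℕ) : ℝ := if m ≤ 2 then 1 else mm

theorem ph_pos (m : ℕ) : 0 < ph m := by
  unfold ph; split_ifs
  · norm_num
  · exact pow_pos rt_pos _

theorem one_le_ff (m : ℕ) : 1 ≤ ff m := by
  unfold ff; split_ifs
  · exact le_rfl
  · have := mm_lb; linarith

/-- weight per point -/
noncomputable def ll (m : ℕ) : ℝ := Real.log (ph m) / m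

theorem log_two_le : Real.log 2 / 2 ≤ Real.log 3 / 3 := by
  rw [div_le_div_iff₀ (by norm_num) (by norm_num)]
  have h1 : Real.log 2 * 3 = Real.log 8 := by
    rw [show (8 : ℝ) = 2 ^ 3 by norm_num, Real.log_pow]; push_cast; ring
  have h2 : Real.log 3 * 2 = Real.log 9 := by
    rw [show (9 : ℝ) = 3 ^ 2 by norm_num, Real.log_pow]; push_cast; ring
  rw [h1, h2]
  exact Real.log_le_log (by norm_num) (by norm_num)

theorem log_rt : Real.log 3 = 2 * Real.log rt := by
  rw [← rt_sq, Real.log_mul rt_pos.ne' rt_pos.ne']; ring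

theorem log_rt_pos : 0 < Real.log rt := Real.log_pos (by have := rt_lb; linarith)

theorem ll_of_ne {m : ℕ} (h1 : 1 ≤ m) (h : m ≠ 2) : ll m = (1 - 1 / m) * Real.log rt := by
  unfold ll ph
  rw [if_neg h, Real.log_pow]
  have : (m : ℝ) ≠ 0 := by positivity
  rw [Nat.cast_sub h1]
  field_simp
  push_cast; ring

theorem ll_two : ll 2 = Real.log 2 / 2 := by unfold ll ph; simp

theorem ll_mono {a b : ℕ} (ha : 1 ≤ a) (hab : a ≤ b) : ll a ≤ ll b := by
  have hp := log_rt_pos
  by_cases h2 : a = 2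
  · subst h2
    by_cases h3 : b = 2
    · subst h3; exact le_rfl
    · rw [ll_two, ll_of_ne (by omega) h3]
      have hb : (3 : ℝ) ≤ b := by exact_mod_cast (by omega : 3 ≤ b)
      have : 1 / (b : ℝ) ≤ 1 / 3 := one_div_le_one_div_of_le (by norm_num) hb
      have h4 := log_two_le
      rw [log_rt] at h4
      nlinarith
  · by_cases h3 : b = 2
    · subst h3
      have : a = 1 := by omega
      subst this
      rw [ll_two, ll_of_ne le_rfl (by omega)]
      have : 0 ≤ Real.log 2 := Real.log_nonneg (by norm_num)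
      simp
      positivity
    · rw [ll_of_ne ha h2, ll_of_ne (by omega) h3]
      have ha' : (0 : ℝ) < a := by exact_mod_cast ha
      have hb : (a : ℝ) ≤ b := by exact_mod_cast hab
      have : 1 / (b : ℝ) ≤ 1 / a := one_div_le_one_div_of_le ha' hb
      nlinarith

theorem ll_one : ll 1 = 0 := by rw [ll_of_ne le_rfl (by omega)]; simp

theorem ll_le {m : ℕ} (h1 : 1 ≤ m) : ll m ≤ (1 - 1 / m) * Real.log 2 := by
  by_cases h : m = 2
  · subst h; rw [ll_two]; norm_num; linarith
  · rw [ll_of_ne h1 h]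
    have hm : (1 : ℝ) ≤ m := by exact_mod_cast h1
    have : 1 / (m : ℝ) ≤ 1 := by rw [div_le_one (by linarith)]; exact hm
    have h2 : Real.log rt ≤ Real.log 2 := Real.log_le_log rt_pos (by have := rt_ub; linarith)
    nlinarith

theorem exp_mul_ll {m : ℕ} (h1 : 1 ≤ m) : Real.exp (m * ll m) = ph m := by
  unfold ll
  have : (m : ℝ) ≠ 0 := by positivity
  rw [mul_div_cancel₀ _ this, Real.exp_log (ph_pos m)]

theorem numA (i j k : ℕ) : 1 + i + j + mm * k ≤ mm * rt ^ (i + k) * (3 / 2) ^ j := by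
  have h1 := rt_lb; have h2 := rt_ub; have h3 := mm_lb; have h4 := mm_ub; have h5 := mm_mul
  have key : ∀ i j k : ℕ, 1 + i + j + mm * k ≤ mm * rt ^ (i + k) * (3 / 2) ^ j ∧
      (2 ≤ mm * rt ^ (i + k) * (3 / 2) ^ j ∨ (i = 0 ∧ j = 0 ∧ k = 0)) := by
    intro i
    induction i with
    | zero =>
      intro j
      induction j with
      | zero =>
        intro k
        induction k with
        | zero => refine ⟨by simp; linarith, Or.inr ⟨rfl, rfl, rfl⟩⟩
        | succ k ih =>
          obtain ⟨ih1, ih2⟩ := ih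
          have e : mm * rt ^ (0 + (k + 1)) * (3 / 2) ^ 0 = (mm * rt ^ (0 + k) * (3 / 2) ^ 0) * rt := by
            rw [← add_assoc, pow_succ]; ring
          rw [e]
          rcases ih2 with h | ⟨-, -, rfl⟩
          · push_cast at ih1 ⊢
            exact ⟨by nlinarith, Or.inl (by nlinarith)⟩
          · simp
            exact ⟨by linarith, by linarith⟩
      | succ j ih =>
        intro k
        obtain ⟨ih1, ih2⟩ := ih k
        have e : mm * rt ^ (0 + k) * (3 / 2) ^ (j + 1) = (mm * rt ^ (0 + k) * (3 / 2) ^ j) * (3 / 2) := by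
          rw [pow_succ]; ring
        rw [e]
        rcases ih2 with h | ⟨-, rfl, rfl⟩
        · push_cast at ih1 ⊢
          exact ⟨by nlinarith, Or.inl (by nlinarith)⟩
        · simp
          exact ⟨by linarith, by linarith⟩
    | succ i ih =>
      intro j k
      obtain ⟨ih1, ih2⟩ := ih j k
      have e : mm * rt ^ (i + 1 + k) * (3 / 2) ^ j = (mm * rt ^ (i + k) * (3 / 2) ^ j) * rt := by
        rw [show i + 1 + k = i + k + 1 by ring, pow_succ]; ring
      rw [e]
      rcases ih2 with h | ⟨rfl, rfl, rfl⟩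
      · push_cast at ih1 ⊢
        exact ⟨by nlinarith, Or.inl (by nlinarith)⟩
      · simp
        exact ⟨by linarith, by linarith⟩
  exact (key i j k).1

theorem numC (i j k : ℕ) (h : ¬ (i = 1 ∧ j = 0 ∧ k = 0)) :
    i + j + mm * k + 1 / (2 ^ j * 3 ^ k) ≤ rt ^ (i + k) * (3 / 2) ^ j := by
  have h1 := rt_lb; have h2 := rt_ub; have h3 := mm_lb; have h4 := mm_ub; have h5 := mm_mul
  have h6 := rt_sq
  have hk : ∀ k : ℕ, mm * k + 1 / 3 ^ k ≤ rt ^ k := by
    intro k
    rcases k with _ | _ | k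
    · simp
    · simp; linarith
    · induction k with
      | zero => norm_num; rw [sq, h6]; linarith
      | succ k ih =>
        have e1 : rt ^ (k + 1 + 1 + 1) = rt ^ (k + 1 + 1) * rt := pow_succ _ _
        have e2 : (1 : ℝ) / 3 ^ (k + 1 + 1 + 1) ≤ 1 / 3 ^ (k + 1 + 1) :=
          one_div_le_one_div_of_le (by positivity) (pow_le_pow_right₀ (by norm_num) (by omega))
        have e3 : 3 ≤ rt ^ (k + 1 + 1) := by
          rw [pow_succ, pow_succ, mul_assoc, h6]
          have := one_le_rt_pow k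
          linarith
        rw [e1]
        push_cast at ih ⊢
        nlinarith
  have hj : ∀ j k : ℕ, j + mm * k + 1 / (2 ^ j * 3 ^ k) ≤ rt ^ k * (3 / 2) ^ j := by
    intro j k
    induction j with
    | zero => simpa using hk k
    | succ j ih =>
      have e1 : rt ^ k * (3 / 2 : ℝ) ^ (j + 1) = rt ^ k * (3 / 2) ^ j * (3 / 2) := by
        rw [pow_succ]; ring
      have e2 : (1 : ℝ) / (2 ^ (j + 1) * 3 ^ k) = (1 / (2 ^ j * 3 ^ k)) / 2 := by
        rw [pow_succ]; field_simp
      have e4 : (0 : ℝ) < 1 / (2 ^ j * 3 ^ k) := by positivity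
      by_cases hR : 2 ≤ rt ^ k * (3 / 2 : ℝ) ^ j
      · rw [e1, e2]; push_cast; linarith
      · have hk1 : k ≤ 1 := by
          by_contra hc
          apply hR
          obtain ⟨k', rfl⟩ : ∃ k', k = k' + 2 := ⟨k - 2, by omega⟩
          have a1 := one_le_rt_pow k'
          have a2 : (1 : ℝ) ≤ (3 / 2) ^ j := one_le_pow₀ (by norm_num)
          rw [pow_add, sq, h6]
          nlinarith
        have hj1 : j ≤ 1 := by
          by_contra hc
          apply hR
          obtain ⟨j', rfl⟩ : ∃ j', j = j' + 2 := ⟨j - 2, by omega⟩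
          have a1 := one_le_rt_pow k
          have a2 : (1 : ℝ) ≤ (3 / 2) ^ j' := one_le_pow₀ (by norm_num)
          rw [pow_add]
          nlinarith
        interval_cases k <;> interval_cases j
        · norm_num
        · norm_num
        · norm_num; linarith
        · exfalso; apply hR; norm_num; linarith
  by_cases h0 : j = 0 ∧ k = 0
  · obtain ⟨rfl, rfl⟩ := h0
    rcases i with _ | _ | i
    · simp
    · simp at h
    · clear h
      induction i with
      | zero => norm_num; rw [sq, h6]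
      | succ i ih =>
        have e3 : 3 ≤ rt ^ (i + 1 + 1) := by
          rw [pow_succ, pow_succ, mul_assoc, h6]
          have := one_le_rt_pow i
          linarith
        simp only [add_zero, pow_zero, mul_one] at ih ⊢
        rw [pow_succ]
        push_cast at ih ⊢
        nlinarith
  · clear h
    induction i with
    | zero => simpa using hj j k
    | succ i ih =>
      have e : rt ^ (i + 1 + k) * (3 / 2) ^ j = (rt ^ (i + k) * (3 / 2) ^ j) * rt := by
        rw [show i + 1 + k = i + k + 1 by ring, pow_succ]; ring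
      have hR : 3 / 2 ≤ rt ^ (i + k) * (3 / 2 : ℝ) ^ j := by
        rcases Nat.eq_zero_or_pos j with rfl | hj0
        · obtain ⟨k', rfl⟩ : ∃ k', k = k' + 1 := ⟨k - 1, by omega⟩
          have a1 := one_le_rt_pow (i + k')
          rw [← add_assoc, pow_succ, pow_zero, mul_one]
          nlinarith
        · obtain ⟨j', rfl⟩ : ∃ j', j = j' + 1 := ⟨j - 1, by omega⟩
          have a1 := one_le_rt_pow (i + k)
          have a2 : (1 : ℝ) ≤ (3 / 2) ^ j' := one_le_pow₀ (by norm_num)
          rw [pow_succ]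
          nlinarith
      rw [e]
      push_cast
      nlinarith

/-- Shape of a union of orbits: `s1` fixed points, `s2` orbits of length two, `s3` longer ones. -/
structure Shape (m s1 s2 s3 u : ℕ) : Prop where
  card : m = s1 + 2 * s2 + s3 + u
  le : 2 * s3 ≤ u
  zero : s3 = 0 → u = 0

theorem ph_shape {m s1 s2 s3 u : ℕ} (h : Shape m (s1 + 1) s2 s3 u) (hm : m ≠ 2) :
    ph m = rt ^ (s1 + s3) * (3 / 2) ^ s2 * (2 ^ s2 * rt ^ u) := by
  unfold ph
  rw [if_neg hm, h.card, show s1 + 1 + 2 * s2 + s3 + u - 1 = (s1 + s3) + 2 * s2 + u by omega,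
    pow_add, pow_add, rt_pow_two_mul, div_pow]
  field_simp

theorem Shape.two {s1 s2 s3 u : ℕ} (h : Shape 2 s1 s2 s3 u) :
    (s1 = 2 ∧ s2 = 0 ∨ s1 = 0 ∧ s2 = 1) ∧ s3 = 0 ∧ u = 0 := by
  have := h.card; have := h.le; have := h.zero
  omega

theorem shapeA {m s1 s2 s3 u : ℕ} (h : Shape m s1 s2 s3 u) (hm : 2 ≤ m) (h1 : 1 ≤ s1) :
    (s1 + s2 + mm * s3) * (2 ^ s2 * rt ^ u) ≤ ff m * ph m := by
  by_cases h2 : m = 2
  · subst h2
    obtain ⟨h3 | h3, rfl, rfl⟩ := h.two
    · obtain ⟨rfl, rfl⟩ := h3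
      simp [ff, ph]
    · omega
  · obtain ⟨i, rfl⟩ : ∃ i, s1 = i + 1 := ⟨s1 - 1, by omega⟩
    rw [ph_shape h h2, ff, if_neg (by omega)]
    have := numA i s2 s3
    have hp : 0 < (2 : ℝ) ^ s2 * rt ^ u := mul_pos (by positivity) (pow_pos rt_pos _)
    push_cast
    nlinarith

theorem shapeA' {m s1 s2 s3 u : ℕ} (h : Shape m s1 s2 s3 u) (hm : 2 ≤ m) (h1 : 1 ≤ s1) :
    3 / 2 * (2 ^ s2 * rt ^ u) ≤ ph m := by
  by_cases h2 : m = 2
  · subst h2
    obtain ⟨h3 | h3, rfl, rfl⟩ := h.two
    · obtain ⟨rfl, rfl⟩ := h3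
      simp [ph]; norm_num
    · omega
  · obtain ⟨i, rfl⟩ : ∃ i, s1 = i + 1 := ⟨s1 - 1, by omega⟩
    rw [ph_shape h h2]
    have hp : 0 < (2 : ℝ) ^ s2 * rt ^ u := mul_pos (by positivity) (pow_pos rt_pos _)
    have hR : 3 / 2 ≤ rt ^ (i + s3) * (3 / 2 : ℝ) ^ s2 := by
      rcases Nat.eq_zero_or_pos s2 with rfl | hj0
      · obtain ⟨k', hk'⟩ : ∃ k', i + s3 = k' + 1 := by
          have := h.card; have := h.zero
          exact ⟨i + s3 - 1, by omega⟩
        have a1 := one_le_rt_pow k'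
        have := rt_lb
        rw [hk', pow_succ, pow_zero, mul_one]
        nlinarith
      · obtain ⟨j', rfl⟩ : ∃ j', s2 = j' + 1 := ⟨s2 - 1, by omega⟩
        have a1 := one_le_rt_pow (i + s3)
        have a2 : (1 : ℝ) ≤ (3 / 2) ^ j' := one_le_pow₀ (by norm_num)
        rw [pow_succ]
        nlinarith
    nlinarith

theorem shapeB {m s1 s2 s3 u : ℕ} (h : Shape m s1 s2 s3 u) (hm : 2 ≤ m) :
    (s1 + s2 + mm * s3) * (2 ^ s2 * rt ^ u) ≤ 3 / 2 * (ff m * ph m) := by
  have hpos : 0 < ff m * ph m := mul_pos (by have := one_le_ff m; linarith) (ph_pos m)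
  have h1 := rt_lb; have h2 := rt_ub; have h3 := mm_lb; have h4 := mm_ub
  rcases Nat.eq_zero_or_pos s1 with rfl | hs1
  swap
  · have := shapeA h hm hs1
    linarith
  by_cases hm2 : m = 2
  · subst hm2
    obtain ⟨h3 | h3, rfl, rfl⟩ := h.two
    · omega
    · obtain ⟨-, rfl⟩ := h3
      simp [ff, ph]; norm_num
  have hu := pow_pos rt_pos u
  rcases Nat.eq_zero_or_pos s2 with rfl | hs2
  · obtain ⟨k, rfl⟩ : ∃ k, s3 = k + 1 := by
      have := h.card; have := h.zero
      exact ⟨s3 - 1, by omega⟩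
    have e : ph m = rt ^ k * rt ^ u := by
      unfold ph
      rw [if_neg hm2, h.card, ← pow_add]
      congr 1; omega
    have := numA 0 0 k
    have a1 := one_le_rt_pow k
    rw [e, ff, if_neg (by omega)]
    simp only [zero_add, pow_zero, mul_one, one_mul, Nat.cast_zero, add_zero] at this ⊢
    push_cast
    have : mm * (k + 1) ≤ 3 / 2 * (mm * rt ^ k) := by nlinarith
    nlinarith
  · obtain ⟨j, rfl⟩ : ∃ j, s2 = j + 1 := ⟨s2 - 1, by omega⟩
    have e : ph m = rt ^ s3 * (3 / 2) ^ j * (2 ^ j * rt ^ u) * rt := by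
      unfold ph
      rw [if_neg hm2, h.card, show 0 + 2 * (j + 1) + s3 + u - 1 = s3 + 2 * j + u + 1 by omega,
        pow_succ, pow_add, pow_add, rt_pow_two_mul, div_pow]
      field_simp
    have := numA 0 j s3
    simp only [zero_add, Nat.cast_zero, add_zero] at this
    rw [e, ff, if_neg (by omega), pow_succ]
    have hp : 0 < (2 : ℝ) ^ j * rt ^ u := mul_pos (by positivity) hu
    have hq : 0 < mm * rt ^ s3 * (3 / 2) ^ j :=
      mul_pos (mul_pos (by linarith) (pow_pos rt_pos _)) (by positivity)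
    push_cast
    have a1 : (j + 1 + mm * s3) * (2 ^ j * rt ^ u) ≤
        mm * rt ^ s3 * (3 / 2) ^ j * (2 ^ j * rt ^ u) := by nlinarith
    have a2 : 0 < mm * rt ^ s3 * (3 / 2) ^ j * (2 ^ j * rt ^ u) := mul_pos hq hp
    nlinarith

theorem shapeC {m s1 s2 s3 u : ℕ} (h : Shape m s1 s2 s3 u) (hm : 2 ≤ m) (h1 : 1 ≤ s1) :
    1 + (s1 + s2 + mm * s3 - 1) * (2 ^ s2 * rt ^ u) ≤ ph m := by
  by_cases h2 : m = 2
  · subst h2
    obtain ⟨h3 | h3, rfl, rfl⟩ := h.two
    · obtain ⟨rfl, rfl⟩ := h3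
      simp [ph]
    · omega
  · obtain ⟨i, rfl⟩ : ∃ i, s1 = i + 1 := ⟨s1 - 1, by omega⟩
    rw [ph_shape h h2]
    have hc := numC i s2 s3 (by have := h.card; have := h.zero; omega)
    have hp : 0 < (2 : ℝ) ^ s2 * rt ^ u := mul_pos (by positivity) (pow_pos rt_pos _)
    have h3 : (2 : ℝ) ^ s2 * 3 ^ s3 ≤ 2 ^ s2 * rt ^ u := by
      rw [← rt_pow_two_mul]
      exact mul_le_mul_of_nonneg_left
        (pow_le_pow_right₀ (by have := rt_lb; linarith) h.le) (by positivity)
    have h4 : 1 ≤ 1 / ((2 : ℝ) ^ s2 * 3 ^ s3) * (2 ^ s2 * rt ^ u) := by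
      rw [div_mul_eq_mul_div, one_mul, le_div_iff₀ (by positivity)]
      linarith
    push_cast
    nlinarith

end CfsgLib.PermK
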