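import Cfsg.Agent.Lib.PermK.Num

/-!
# Orbits of permutation groups and their weights
-/

set_option autoImplicit false

namespace CfsgLib.PermK

open Finset Equiv

variable {α : Type*} [Fintype α] [DecidableEq α]

open Classical in
/-- The orbit of `x` as a finset. -/
noncomputable def orb (H : Subgroup (Perm α)) (x : α) : Finset α :=
  univ.filter (fun y => ∃ h ∈ H, h x = y)

theorem mem_orb {H : Subgroup (Perm α)} {x y : α} : y ∈ orb H x ↔ ∃ h ∈ H, h x = y := by
  simp [orb]

theorem self_mem_orb (H : Subgroup (Perm α)) (x : α) : x ∈ orb H x :=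
  mem_orb.2 ⟨1, H.one_mem, rfl⟩

theorem orb_eq_of_mem {H : Subgroup (Perm α)} {x y : α} (h : y ∈ orb H x) : orb H y = orb H x := by
  obtain ⟨g, hg, rfl⟩ := mem_orb.1 h
  ext z
  simp only [mem_orb]
  constructor
  · rintro ⟨k, hk, rfl⟩
    exact ⟨k * g, H.mul_mem hk hg, rfl⟩
  · rintro ⟨k, hk, rfl⟩
    exact ⟨k * g⁻¹, H.mul_mem hk (H.inv_mem hg), by simp⟩

theorem orb_mono {H K : Subgroup (Perm α)} (h : H ≤ K) (x : α) : orb H x ⊆ orb K x := by
  intro y hy
  obtain ⟨g, hg, rfl⟩ := mem_orb.1 hy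
  exact mem_orb.2 ⟨g, h hg, rfl⟩

/-- The point stabilizer. -/
def st (H : Subgroup (Perm α)) (x : α) : Subgroup (Perm α) := H ⊓ MulAction.stabilizer (Perm α) x

omit [Fintype α] [DecidableEq α] in
theorem mem_st {H : Subgroup (Perm α)} {x : α} {h : Perm α} : h ∈ st H x ↔ h ∈ H ∧ h x = x := by
  simp [st, MulAction.mem_stabilizer_iff]

omit [Fintype α] [DecidableEq α] in
theorem st_le (H : Subgroup (Perm α)) (x : α) : st H x ≤ H := inf_le_left

/-- The orbit length. -/
noncomputable def os (H : Subgroup (Perm α)) (x : α) : ℕ := (orb H x).card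

theorem os_pos (H : Subgroup (Perm α)) (x : α) : 1 ≤ os H x :=
  card_pos.2 ⟨x, self_mem_orb H x⟩

theorem os_eq_of_mem {H : Subgroup (Perm α)} {x y : α} (h : y ∈ orb H x) : os H y = os H x := by
  unfold os; rw [orb_eq_of_mem h]

theorem os_mono {H K : Subgroup (Perm α)} (h : H ≤ K) (x : α) : os H x ≤ os K x :=
  card_le_card (orb_mono h x)

theorem os_mul (H : Subgroup (Perm α)) (x : α) : os H x * Nat.card (st H x) = Nat.card H := by
  have h1 : (MulAction.stabilizer H x).index = os H x := by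
    rw [MulAction.index_stabilizer, os, ← Set.ncard_coe_finset]
    congr 1
    ext y
    simp only [MulAction.mem_orbit_iff, mem_coe, mem_orb]
    constructor
    · rintro ⟨g, rfl⟩
      exact ⟨g, g.2, rfl⟩
    · rintro ⟨g, hg, rfl⟩
      exact ⟨⟨g, hg⟩, rfl⟩
  have h2 : Nat.card (MulAction.stabilizer H x) = Nat.card (st H x) := by
    have : MulAction.stabilizer H x = (st H x).subgroupOf H := by
      ext g
      rw [Subgroup.mem_subgroupOf, mem_st, MulAction.mem_stabilizer_iff]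
      exact ⟨fun h => ⟨g.2, h⟩, fun h => h.2⟩
    rw [this]
    exact Nat.card_congr (Subgroup.subgroupOfEquivOfLe (st_le H x)).toEquiv
  rw [← h1, ← h2, Subgroup.index_mul_card]

theorem os_eq_one {H : Subgroup (Perm α)} {x : α} (h : ∀ g ∈ H, g x = x) : os H x = 1 := by
  unfold os
  rw [card_eq_one]
  refine ⟨x, ?_⟩
  ext y
  simp only [mem_orb, mem_singleton]
  constructor
  · rintro ⟨g, hg, rfl⟩
    exact h g hg
  · rintro rfl
    exact ⟨1, H.one_mem, rfl⟩

theorem fix_of_os_eq_one {H : Subgroup (Perm α)} {x : α} (h : os H x = 1) :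
    ∀ g ∈ H, g x = x := by
  intro g hg
  exact card_le_one.1 h.le _ (mem_orb.2 ⟨g, hg, rfl⟩) _ (self_mem_orb H x)

/-- Logarithmic weight of a set of points. -/
noncomputable def LL (H : Subgroup (Perm α)) (S : Finset α) : ℝ := ∑ x ∈ S, ll (os H x)

/-- Weighted number of orbits. -/
noncomputable def FF (H : Subgroup (Perm α)) (S : Finset α) : ℝ :=
  ∑ x ∈ S, ff (os H x) / os H x

/-- Invariant sets. -/
def Inv (H : Subgroup (Perm α)) (S : Finset α) : Prop := ∀ h ∈ H, ∀ x ∈ S, h x ∈ S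

theorem inv_orb {Q P : Subgroup (Perm α)} (h : Q ≤ P) (x : α) : Inv Q (orb P x) := by
  intro g hg y hy
  obtain ⟨k, hk, rfl⟩ := mem_orb.1 hy
  exact mem_orb.2 ⟨g * k, P.mul_mem (h hg) hk, rfl⟩

theorem Inv.orb_subset {H : Subgroup (Perm α)} {S : Finset α} (hS : Inv H S) {x : α} (hx : x ∈ S) :
    orb H x ⊆ S := by
  intro y hy
  obtain ⟨k, hk, rfl⟩ := mem_orb.1 hy
  exact hS k hk x hx

theorem Inv.sdiff_orb {H : Subgroup (Perm α)} {S : Finset α} (hS : Inv H S) (x : α) :
    Inv H (S \ orb H x) := by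
  intro g hg y hy
  rw [mem_sdiff] at hy ⊢
  refine ⟨hS g hg y hy.1, fun h => hy.2 ?_⟩
  have := inv_orb (le_refl H) x g⁻¹ (H.inv_mem hg) _ h
  simpa using this

theorem sum_orb (H : Subgroup (Perm α)) (x : α) (f : ℕ → ℝ) :
    ∑ y ∈ orb H x, f (os H y) = os H x * f (os H x) := by
  rw [sum_congr rfl (fun y hy => by rw [os_eq_of_mem hy]), sum_const, nsmul_eq_mul]
  rfl

theorem exp_LL_orb (H : Subgroup (Perm α)) (x : α) : Real.exp (LL H (orb H x)) = ph (os H x) := by
  unfold LL
  rw [sum_orb H x ll, exp_mul_ll (os_pos H x)]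

theorem FF_orb (H : Subgroup (Perm α)) (x : α) : FF H (orb H x) = ff (os H x) := by
  unfold FF
  rw [sum_orb H x (fun m => ff m / m)]
  have : (os H x : ℝ) ≠ 0 := by have := os_pos H x; positivity
  field_simp

theorem LL_mono {Q P : Subgroup (Perm α)} (h : Q ≤ P) (S : Finset α) : LL Q S ≤ LL P S :=
  sum_le_sum fun x _ => ll_mono (os_pos Q x) (os_mono h x)

theorem LL_nonneg (Q : Subgroup (Perm α)) (S : Finset α) : 0 ≤ LL Q S :=
  sum_nonneg fun x _ => ll_one ▸ ll_mono le_rfl (os_pos Q x)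

theorem LL_split (H : Subgroup (Perm α)) {S T : Finset α} (h : S ⊆ T) :
    LL H T = LL H S + LL H (T \ S) := by
  unfold LL; rw [← sum_sdiff h, add_comm]

theorem FF_split (H : Subgroup (Perm α)) {S T : Finset α} (h : S ⊆ T) :
    FF H T = FF H S + FF H (T \ S) := by
  unfold FF; rw [← sum_sdiff h, add_comm]

theorem FF_nonneg (H : Subgroup (Perm α)) (S : Finset α) : 0 ≤ FF H S :=
  sum_nonneg fun x _ => div_nonneg (by have := one_le_ff (os H x); linarith) (by positivity)

theorem exists_shape (H : Subgroup (Perm α)) (S : Finset α) : Inv H S →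
    ∃ s1 s2 s3 u : ℕ, Shape S.card s1 s2 s3 u ∧ FF H S = s1 + s2 + mm * s3 ∧
      Real.exp (LL H S) = 2 ^ s2 * rt ^ u ∧ ∀ a ∈ S, os H a = 1 → 1 ≤ s1 := by
  induction S using Finset.strongInduction with
  | H S ih =>
    intro hS
    rcases S.eq_empty_or_nonempty with rfl | ⟨x, hx⟩
    · exact ⟨0, 0, 0, 0, ⟨by simp, le_rfl, fun _ => rfl⟩, by simp [FF], by simp [LL], by simp⟩
    have hsub := hS.orb_subset hx
    obtain ⟨s1, s2, s3, u, h1, h2, h3, h4⟩ := ih (S \ orb H x)
      (sdiff_ssubset hsub ⟨x, self_mem_orb H x⟩) (hS.sdiff_orb x)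
    have c1 : S.card = (S \ orb H x).card + os H x := (card_sdiff_add_card_eq_card hsub).symm
    have c2 := FF_split H hsub
    have c3 := LL_split H hsub
    rw [FF_orb, h2] at c2
    have c4 : Real.exp (LL H S) = ph (os H x) * (2 ^ s2 * rt ^ u) := by
      rw [c3, Real.exp_add, exp_LL_orb, h3]
    have c5 : ∀ a ∈ S, os H a = 1 → os H x = 1 ∨ 1 ≤ s1 := by
      intro a ha h
      by_cases hax : a ∈ orb H x
      · left; rw [← os_eq_of_mem hax, h]
      · right; exact h4 a (mem_sdiff.2 ⟨ha, hax⟩) h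
    have e1 := h1.card; have e2 := h1.le; have e3 := h1.zero
    have hp := os_pos H x
    by_cases m1 : os H x = 1
    · refine ⟨s1 + 1, s2, s3, u, ⟨by omega, e2, e3⟩, ?_, ?_, fun _ _ _ => by omega⟩
      · rw [c2, m1]; simp [ff]; ring
      · rw [c4, m1]; simp [ph]
    by_cases m2 : os H x = 2
    · refine ⟨s1, s2 + 1, s3, u, ⟨by omega, e2, e3⟩, ?_, ?_, fun a ha h => ?_⟩
      · rw [c2, m2]; simp [ff]; ring
      · rw [c4, m2]; simp [ph]; ring
      · rcases c5 a ha h with h | h <;> omega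
    · refine ⟨s1, s2, s3 + 1, u + (os H x - 1), ⟨by omega, by omega, by omega⟩, ?_, ?_,
        fun a ha h => ?_⟩
      · rw [c2, ff, if_neg (by omega)]; push_cast; ring
      · rw [c4, ph, if_neg m2, pow_add]; ring
      · rcases c5 a ha h with h | h <;> omega

theorem comb {Q P : Subgroup (Perm α)} (hle : Q ≤ P) {a d : α} (ha : ∀ h ∈ Q, h a = a)
    (hm : 2 ≤ os P d) (had : os P a = os P d) :
    Real.exp (LL Q univ) * FF Q (orb P d) ≤ ff (os P d) * Real.exp (LL P univ) := by
  obtain ⟨s1, s2, s3, u, h1, h2, h3, h4⟩ := exists_shape Q (orb P d) (inv_orb hle d)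
  have hF := FF_nonneg Q (orb P d)
  by_cases hin : a ∈ orb P d
  · have h5 := shapeA h1 hm (h4 a hin (os_eq_one ha))
    rw [LL_split Q (subset_univ (orb P d)), LL_split P (subset_univ (orb P d)), Real.exp_add,
      Real.exp_add, exp_LL_orb]
    have h6 := Real.exp_le_exp.2 (LL_mono hle (univ \ orb P d))
    have h7 := Real.exp_pos (LL Q (univ \ orb P d))
    rw [← h2, ← h3] at h5
    change _ ≤ ff (os P d) * ph (os P d) at h5
    have h8 := Real.exp_pos (LL Q (orb P d))
    have h9 : 0 ≤ ff (os P d) * ph (os P d) :=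
      mul_nonneg (by have := one_le_ff (os P d); linarith) (ph_pos _).le
    nlinarith
  · obtain ⟨t1, t2, t3, v, g1, -, g3, g4⟩ := exists_shape Q (orb P a) (inv_orb hle a)
    have hsub : orb P a ⊆ univ \ orb P d := by
      intro y hy
      refine mem_sdiff.2 ⟨mem_univ _, fun h => hin ?_⟩
      rw [← orb_eq_of_mem h, orb_eq_of_mem hy]
      exact self_mem_orb P a
    have h5 := shapeB h1 hm
    have g5 := shapeA' g1 (le_of_le_of_eq hm had.symm) (g4 a (self_mem_orb P a) (os_eq_one ha))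
    rw [LL_split Q (subset_univ (orb P d)), LL_split P (subset_univ (orb P d)), LL_split Q hsub,
      LL_split P hsub, Real.exp_add, Real.exp_add, Real.exp_add, Real.exp_add, exp_LL_orb,
      exp_LL_orb]
    have h6 := Real.exp_le_exp.2 (LL_mono hle ((univ \ orb P d) \ orb P a))
    have h7 := Real.exp_pos (LL Q ((univ \ orb P d) \ orb P a))
    rw [← h2, ← h3] at h5
    rw [← g3] at g5
    change _ ≤ 3 / 2 * (ff (os P d) * ph (os P d)) at h5
    change _ ≤ ph (os P a) at g5
    have h8 := Real.exp_pos (LL Q (orb P d))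
    have g8 := Real.exp_pos (LL Q (orb P a))
    have h9 : 0 ≤ ff (os P d) * ph (os P d) :=
      mul_nonneg (by have := one_le_ff (os P d); linarith) (ph_pos _).le
    set A := Real.exp (LL Q (orb P d))
    set B := Real.exp (LL Q (orb P a))
    set C := Real.exp (LL Q ((univ \ orb P d) \ orb P a))
    set D := Real.exp (LL P ((univ \ orb P d) \ orb P a))
    set F := FF Q (orb P d)
    set W := ff (os P d) * ph (os P d) with hW
    have k1 : F * A * B ≤ W * ph (os P a) := by nlinarith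
    have k2 : 0 ≤ W * ph (os P a) := mul_nonneg h9 (ph_pos _).le
    calc A * (B * C) * F = F * A * B * C := by ring
      _ ≤ W * ph (os P a) * D := mul_le_mul k1 h6 h7.le k2
      _ = _ := by rw [hW]; ring

theorem comb_root {Q P : Subgroup (Perm α)} (hle : Q ≤ P) {a d : α} (ha : ∀ h ∈ Q, h a = a)
    (hm : 2 ≤ os P d) (had : a ∈ orb P d) :
    Real.exp (LL Q univ) * FF Q ((orb P d).erase a) ≤
      (ph (os P d) - 1) * Real.exp (LL P (univ \ orb P d)) := by
  obtain ⟨s1, s2, s3, u, h1, h2, h3, h4⟩ := exists_shape Q (orb P d) (inv_orb hle d)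
  have hF := FF_nonneg Q ((orb P d).erase a)
  have h5 := shapeC h1 hm (h4 a had (os_eq_one ha))
  have e : FF Q ((orb P d).erase a) = FF Q (orb P d) - 1 := by
    unfold FF
    rw [← add_sum_erase _ _ had, os_eq_one ha]
    simp [ff]
  rw [LL_split Q (subset_univ (orb P d)), Real.exp_add]
  have h6 := Real.exp_le_exp.2 (LL_mono hle (univ \ orb P d))
  have h7 := Real.exp_pos (LL Q (univ \ orb P d))
  rw [← h2, ← h3, ← e] at h5
  change _ ≤ ph (os P d) at h5
  have h8 := Real.exp_pos (LL Q (orb P d))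
  have h9 : 0 ≤ FF Q ((orb P d).erase a) * Real.exp (LL Q (orb P d)) := mul_nonneg hF h8.le
  nlinarith

/-- Conjugate subgroup `g P g⁻¹`. -/
def cj (g : Perm α) (P : Subgroup (Perm α)) : Subgroup (Perm α) :=
  P.comap (MulAut.conj g⁻¹).toMonoidHom

omit [Fintype α] [DecidableEq α] in
theorem mem_cj {g x : Perm α} {P : Subgroup (Perm α)} : x ∈ cj g P ↔ g⁻¹ * x * g ∈ P := by
  simp [cj]

omit [Fintype α] [DecidableEq α] in
theorem card_cj (g : Perm α) (P : Subgroup (Perm α)) : Nat.card (cj g P) = Nat.card P := by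
  refine Nat.card_congr ⟨fun x => ⟨g⁻¹ * x * g, mem_cj.1 x.2⟩,
    fun y => ⟨g * y * g⁻¹, mem_cj.2 ?_⟩, fun x => ?_, fun y => ?_⟩
  · simp [mul_assoc]
  · simp [mul_assoc]
  · simp [mul_assoc]

theorem os_cj (g : Perm α) (P : Subgroup (Perm α)) (x : α) : os (cj g P) (g x) = os P x := by
  unfold os
  symm
  refine card_bij (fun y _ => g y) ?_ (fun _ _ _ _ h => g.injective h) ?_
  · intro y hy
    obtain ⟨k, hk, rfl⟩ := mem_orb.1 hy
    exact mem_orb.2 ⟨g * k * g⁻¹, mem_cj.2 (by simpa [mul_assoc] using hk), by simp⟩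
  · intro y hy
    obtain ⟨k, hk, rfl⟩ := mem_orb.1 hy
    exact ⟨(g⁻¹ * k * g) x, mem_orb.2 ⟨_, mem_cj.1 hk, rfl⟩, by simp⟩

theorem LL_cj (g : Perm α) (P : Subgroup (Perm α)) : LL (cj g P) univ = LL P univ := by
  unfold LL
  rw [← Equiv.sum_comp g]
  simp only [os_cj]

end CfsgLib.PermK
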